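import Cfsg.Agent.Lib.GS.NormalClosureZipper

/-!
If `G = [G, α]` then the iterated commutators with `α` generate `G`.
-/

set_option autoImplicit false

namespace Cfsg.Agent.Lib.IterComm

open Subgroup Cfsg.Agent.Lib.GS

universe u

variable {G : Type u} [Group G]

/-- The commutator map of an automorphism. -/
def cm (α : MulAut G) : G → G := fun c => c * (α c)⁻¹

/-- The semidirect product with the group generated by the automorphism. -/
abbrev Ext (α : MulAut G) : Type u :=
  G ⋊[(Subgroup.zpowers α).subtype] ↥(Subgroup.zpowers α)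

/-- The automorphism as an element of the extension. -/
def el (α : MulAut G) : Ext α := SemidirectProduct.inr ⟨α, mem_zpowers α⟩

variable {α : MulAut G}

lemma conj_el (c : G) :
    el α * SemidirectProduct.inl c * (el α)⁻¹ = (SemidirectProduct.inl (α c) : Ext α) := by
  rw [el, ← map_inv, ← SemidirectProduct.inl_aut]; rfl

lemma conj_inl (c : G) : SemidirectProduct.inl c * el α * (SemidirectProduct.inl c)⁻¹ =
    (SemidirectProduct.inl (cm α c) * el α : Ext α) := by
  rw [cm, map_mul, ← map_inv α, ← conj_el, map_inv]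
  group

lemma inr_mem {H : Subgroup (Ext α)} (h : el α ∈ H) (r : ↥(Subgroup.zpowers α)) :
    (SemidirectProduct.inr r : Ext α) ∈ H := by
  obtain ⟨i, hi⟩ := mem_zpowers_iff.1 r.2
  have : r = (⟨α, mem_zpowers α⟩ : ↥(Subgroup.zpowers α)) ^ i :=
    Subtype.ext (by simpa using hi.symm)
  rw [this, map_zpow]
  exact zpow_mem h i

lemma eq_top_of_inl {H : Subgroup (Ext α)} (h : el α ∈ H)
    (h' : ∀ g : G, (SemidirectProduct.inl g : Ext α) ∈ H) : H = ⊤ :=
  eq_top_iff.2 fun x _ => by
    rw [← SemidirectProduct.inl_left_mul_inr_right x]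
    exact mul_mem (h' _) (inr_mem h _)

variable [Finite G]

instance : Finite (Ext α) := Finite.of_equiv _ SemidirectProduct.equivProd.symm

lemma apply_mem {S : Subgroup G} (hS : ∀ g ∈ S, α g ∈ S) (r : ↥(Subgroup.zpowers α)) {g : G}
    (hg : g ∈ S) : (r : MulAut G) g ∈ S := by
  obtain ⟨i, hi⟩ := (Submonoid.mem_powers_iff _ _).1 (mem_powers_iff_mem_zpowers.2 r.2)
  rw [← hi]
  clear hi
  induction i generalizing g with
  | zero => simpa using hg
  | succ i ih => rw [pow_succ, MulAut.mul_apply]; exact ih (hS g hg)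

/-- An invariant subgroup, extended by the automorphism. -/
def lift (S : Subgroup G) (hS : ∀ g ∈ S, α g ∈ S) : Subgroup (Ext α) where
  carrier := {x | x.left ∈ S}
  one_mem' := by simp
  mul_mem' {x y} hx hy := by
    show (x * y).left ∈ S
    rw [SemidirectProduct.mul_left]
    exact S.mul_mem hx (apply_mem hS _ hy)
  inv_mem' {x} hx := by
    show (x⁻¹).left ∈ S
    rw [SemidirectProduct.inv_left]
    exact apply_mem hS (x.right⁻¹) (S.inv_mem hx)

lemma mem_lift {S : Subgroup G} {hS : ∀ g ∈ S, α g ∈ S} {x : Ext α} :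
    x ∈ lift S hS ↔ x.left ∈ S := Iff.rfl

omit [Finite G] in
lemma cm_apply (c : G) : α (cm α c) = cm α (α c) := by simp [cm]

omit [Finite G] in
lemma apply_mem_closure {s : Set G} (hs : ∀ c ∈ s, α c ∈ s) {g : G} (hg : g ∈ closure s) :
    α g ∈ closure s := by
  induction hg using closure_induction with
  | mem x hx => exact subset_closure (hs x hx)
  | one => simp
  | mul x y _ _ hx hy => rw [map_mul]; exact mul_mem hx hy
  | inv x _ hx => rw [map_inv]; exact inv_mem hx

omit [Finite G] in
lemma iterate_apply (k : ℕ) (c : G) : α ((cm α)^[k] c) = (cm α)^[k] (α c) := by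
  induction k with
  | zero => rfl
  | succ k ih => rw [Function.iterate_succ_apply', Function.iterate_succ_apply', cm_apply, ih]

theorem generate (k : ℕ) : ∀ (n : ℕ) (G : Type u) [Group G] [Finite G] (α : MulAut G),
    Nat.card G = n → closure (Set.range (cm α)) = ⊤ → closure (Set.range ((cm α)^[k])) = ⊤ := by
  intro n
  induction n using Nat.strong_induction_on with
  | _ n ih => ?_
  intro G _ _ α hn hgen
  rcases Nat.eq_zero_or_pos k with rfl | hk
  · simp
  set T := closure (Set.range ((cm α)^[k])) with hT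
  by_contra hTne
  have hTα : ∀ g ∈ T, α g ∈ T := fun g hg => apply_mem_closure
    (by rintro _ ⟨c, rfl⟩; exact ⟨α c, (iterate_apply k c).symm⟩) hg
  set L := lift T hTα with hL
  set A := Subgroup.zpowers (el α) with hA
  have haA : el α ∈ A := mem_zpowers _
  have hLne : L ≠ ⊤ := fun e => hTne (eq_top_iff.2 fun g _ => by
    have : (SemidirectProduct.inl g : Ext α) ∈ L := e ▸ mem_top _
    simpa [hL, mem_lift] using this)
  have hAL : A ≤ L := zpowers_le.2 (by simp [hL, mem_lift, el])
  have hAtop : A ≠ ⊤ := fun e => hLne (top_le_iff.1 (e ▸ hAL))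
  have hncl : normalClosure (A : Set (Ext α)) = ⊤ := by
    set N := normalClosure (A : Set (Ext α)) with hN
    have haN : el α ∈ N := subset_normalClosure haA
    have h1 : closure (Set.range (cm α)) ≤ N.comap (SemidirectProduct.inl : G →* Ext α) := by
      refine (closure_le _).2 ?_
      rintro _ ⟨c, rfl⟩
      rw [SetLike.mem_coe, mem_comap]
      have h2 : (SemidirectProduct.inl (cm α c) * el α : Ext α) ∈ N :=
        conj_inl (α := α) c ▸ normalClosure_normal.conj_mem _ haN _
      simpa using mul_mem h2 (inv_mem haN)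
    rw [hgen] at h1
    exact eq_top_of_inl haN fun g => h1 (mem_top g)
  rcases NCZipper.dichotomy A hncl hAtop with hY | ⟨M, ⟨hM, hAM⟩, huniq⟩
  · refine hLne (top_le_iff.1 (hY ▸ sSup_le ?_))
    rintro H ⟨hAH, hH, hmem⟩
    have haH : el α ∈ H := hAH haA
    set G₀ := H.comap (SemidirectProduct.inl : G →* Ext α) with hG₀
    have hG₀α : ∀ g ∈ G₀, α g ∈ G₀ := fun g hg => by
      rw [mem_comap, ← conj_el]
      exact mul_mem (mul_mem haH hg) (inv_mem haH)
    have hleft : ∀ x ∈ H, x.left ∈ G₀ := fun x hx => by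
      rw [mem_comap, show (SemidirectProduct.inl x.left : Ext α) =
        x * (SemidirectProduct.inr x.right)⁻¹ by
          rw [eq_mul_inv_iff_mul_eq, SemidirectProduct.inl_left_mul_inr_right]]
      exact mul_mem hx (inv_mem (inr_mem haH _))
    set N₀ := closure (cm α '' G₀) with hN₀
    have hN₀α : ∀ g ∈ N₀, α g ∈ N₀ := fun g hg => apply_mem_closure
      (by rintro _ ⟨c, hc, rfl⟩; exact ⟨α c, hG₀α c hc, (cm_apply c).symm⟩) hg
    have hN₀le : N₀ ≤ G₀ := (closure_le _).2 (by
      rintro _ ⟨c, hc, rfl⟩; exact G₀.mul_mem hc (G₀.inv_mem (hG₀α c hc)))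
    have hKH : lift N₀ hN₀α ≤ H := fun x hx => by
      rw [← SemidirectProduct.inl_left_mul_inr_right x]
      exact mul_mem (hN₀le hx) (inr_mem haH _)
    have hcm : ∀ h ∈ G₀, ∀ i : ℕ, h * ((α ^ i) h)⁻¹ ∈ N₀ := by
      intro h hh i
      induction i with
      | zero => simp
      | succ i hi =>
        have e : h * ((α ^ (i + 1)) h)⁻¹ = cm α h * α (h * ((α ^ i) h)⁻¹) := by
          rw [pow_succ', MulAut.mul_apply]; simp [cm]
        rw [e]
        exact mul_mem (subset_closure ⟨h, hh, rfl⟩) (hN₀α _ hi)
    have hconj : ∀ h ∈ G₀, ∀ z, z ∈ N₀ → h * z * h⁻¹ ∈ N₀ := by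
      intro h hh z hz
      induction hz using closure_induction with
      | mem x hx =>
        obtain ⟨c, hc, rfl⟩ := hx
        have e : h * cm α c * h⁻¹ = cm α (h * c) * (cm α h)⁻¹ := by simp [cm, mul_assoc]
        rw [e]
        exact mul_mem (subset_closure ⟨_, G₀.mul_mem hh hc, rfl⟩)
          (inv_mem (subset_closure ⟨h, hh, rfl⟩))
      | one => simp
      | mul x y _ _ hx hy => simpa using mul_mem hx hy
      | inv x _ hx => simpa [mul_assoc] using inv_mem hx
    have hnorm : H ≤ normalizer ((lift N₀ hN₀α : Subgroup (Ext α)) : Set (Ext α)) := by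
      intro x hx
      rw [← SemidirectProduct.inl_left_mul_inr_right x]
      refine mul_mem (mem_normalizer_of_forall fun z hz => ?_)
        (le_normalizer (mem_lift.2 (by simp [N₀.one_mem])))
      obtain ⟨i, hi⟩ := (Submonoid.mem_powers_iff _ _).1 (mem_powers_iff_mem_zpowers.2 z.right.2)
      rw [mem_lift, SemidirectProduct.mul_left, SemidirectProduct.mul_left,
        SemidirectProduct.inv_left]
      simp only [SemidirectProduct.left_inl, SemidirectProduct.right_inl, SemidirectProduct.mul_right,
        inv_one, one_mul, map_one, MulAut.one_apply, subtype_apply]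
      rw [← hi, map_inv, show x.left * z.left * ((α ^ i) x.left)⁻¹ =
        x.left * z.left * x.left⁻¹ * (x.left * ((α ^ i) x.left)⁻¹) by group]
      exact mul_mem (hconj _ (hleft x hx) _ (mem_lift.1 hz))
        (hcm _ (hleft x hx) i)
    have hKeq := hmem _ hKH (zpowers_le.2 (mem_lift.2 (by simp [el, N₀.one_mem]))) hnorm
    have hN₀eq : N₀ = G₀ := le_antisymm hN₀le fun g hg => by
      have : (SemidirectProduct.inl g : Ext α) ∈ lift N₀ hN₀α := hKeq ▸ hg
      simpa [mem_lift] using this
    have hG₀lt : Nat.card G₀ < n := by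
      refine hn ▸ lt_of_le_of_ne (card_le_card_group G₀) fun e => hH ?_
      have := eq_top_of_card_eq G₀ e
      exact eq_top_of_inl haH fun g => by
        have : g ∈ G₀ := this ▸ mem_top g
        exact this
    let r : G₀ →* G₀ :=
      { toFun := fun g => ⟨α g, hG₀α g g.2⟩
        map_one' := Subtype.ext (map_one α)
        map_mul' := fun a b => Subtype.ext (map_mul α _ _) }
    have hr : Function.Injective r := fun a b hab =>
      Subtype.ext (α.injective (congrArg Subtype.val hab))
    let α₀ : MulAut G₀ := MulEquiv.ofBijective r (Finite.injective_iff_bijective.1 hr)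
    have hsemi : Function.Semiconj (Subtype.val : G₀ → G) (cm α₀) (cm α) := fun c => rfl
    have hgen₀ : closure (Set.range (cm α₀)) = ⊤ := by
      apply map_injective G₀.subtype_injective
      rw [MonoidHom.map_closure, ← MonoidHom.range_eq_map, range_subtype, ← Set.range_comp]
      refine Eq.trans (congrArg Subgroup.closure ?_) hN₀eq
      ext y
      simp only [Set.mem_range, Function.comp_apply, Set.mem_image, SetLike.mem_coe]
      exact ⟨fun ⟨c, e⟩ => ⟨c, c.2, e⟩, fun ⟨c, hc, e⟩ => ⟨⟨c, hc⟩, e⟩⟩
    have hrec := ih _ hG₀lt G₀ α₀ rfl hgen₀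
    intro x hx
    rw [mem_lift]
    have h3 : (⟨x.left, hleft x hx⟩ : G₀) ∈ closure (Set.range ((cm α₀)^[k])) := hrec ▸ mem_top _
    have h4 := mem_map_of_mem G₀.subtype h3
    rw [MonoidHom.map_closure] at h4
    refine closure_mono ?_ h4
    rintro _ ⟨_, ⟨c, rfl⟩, rfl⟩
    exact ⟨c, ((hsemi.iterate_right k) c).symm⟩
  · have hLM : L ≤ M := by
      obtain ⟨Z, hZ, hLZ⟩ := (eq_top_or_exists_le_coatom L).resolve_left hLne
      exact (huniq Z ⟨hZ, hAL.trans hLZ⟩) ▸ hLZ
    have haM : el α ∈ M := hAM haA
    have hMn : ¬ M.Normal := fun h => hM.1 (top_le_iff.1 (hncl ▸ normalClosure_le_normal hAM))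
    have hback : ∀ x : Ext α, x * el α * x⁻¹ ∈ M → x ∈ M := by
      intro x hx
      have hsame : cmap x⁻¹ M = M := huniq _ ⟨isCoatom_cmap hM _, zpowers_le.2 (by
        rw [mem_cmap, inv_inv]; exact hx)⟩
      have h2 := mem_normalizer_of_cmap_le hsame.le
      rw [coatom_normalizer hM hMn] at h2
      simpa using inv_mem h2
    have hdesc : ∀ (g : G) (j i : ℕ), i + j = k →
        (SemidirectProduct.inl ((cm α)^[i] g) * el α : Ext α) ∈ M := by
      intro g j
      induction j with
      | zero =>
        intro i hi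
        obtain rfl : i = k := by omega
        refine mul_mem (hLM (mem_lift.2 ?_)) haM
        simp only [SemidirectProduct.left_inl]
        exact subset_closure ⟨g, rfl⟩
      | succ j ihj =>
        intro i hi
        refine hback _ ?_
        rw [show (SemidirectProduct.inl ((cm α)^[i] g) * el α : Ext α) * el α *
          (SemidirectProduct.inl ((cm α)^[i] g) * el α)⁻¹ =
          SemidirectProduct.inl ((cm α)^[i] g) * el α * (SemidirectProduct.inl ((cm α)^[i] g))⁻¹ by
            group, conj_inl, ← Function.iterate_succ_apply' (cm α)]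
        exact ihj (i + 1) (by omega)
    have hall : closure (Set.range (cm α)) ≤ M.comap (SemidirectProduct.inl : G →* Ext α) := by
      refine (closure_le _).2 ?_
      rintro _ ⟨c, rfl⟩
      have := mul_mem (hdesc c (k - 1) 1 (by omega)) (inv_mem haM)
      simpa using this
    rw [hgen] at hall
    exact hM.1 (eq_top_of_inl haM fun g => hall (mem_top g))

end Cfsg.Agent.Lib.IterComm
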