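import Cfsg.Agent.Lib.GS.Sylow
import Cfsg.Agent.Lib.Hall.Solvable
import Cfsg.Agent.Lib.Transfer.Hall

/-!
Left-normed commutator values of length `k + 1`, and the coprime order condition on them:
a solvable group with this condition has `γ_{k+1} ≤ F(G)`.
-/

set_option autoImplicit false

namespace Cfsg.Agent.Lib.IterComm

open Subgroup Cfsg
open scoped commutatorElement

/-- Left-normed commutator values of length `k + 1`. -/
def KC (G : Type*) [Group G] : ℕ → Set G
  | 0 => Set.univ
  | k + 1 => {z | ∃ x ∈ KC G k, ∃ b, z = ⁅x, b⁆}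

variable {G H : Type*} [Group G] [Group H]

lemma mem_KC_zero (x : G) : x ∈ KC G 0 := by
  rw [KC]; exact Set.mem_univ x

lemma mem_KC_iff (k : ℕ) : ∀ z : G, z ∈ KC G k ↔ ∃ f : Fin (k + 1) → G,
    z = ((List.ofFn f).tail).foldl (fun a b => a * b * a⁻¹ * b⁻¹) (f 0) := by
  induction k with
  | zero => exact fun z => ⟨fun _ => ⟨fun _ => z, by simp⟩, fun _ => mem_KC_zero z⟩
  | succ k ih =>
    intro z
    have key : ∀ f : Fin (k + 2) → G,
        ((List.ofFn f).tail).foldl (fun a b => a * b * a⁻¹ * b⁻¹) (f 0) =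
        ⁅((List.ofFn fun i : Fin (k + 1) => f i.castSucc).tail).foldl
          (fun a b => a * b * a⁻¹ * b⁻¹) (f (Fin.castSucc 0)), f (Fin.last (k + 1))⁆ := by
      intro f
      rw [List.ofFn_succ' f, List.concat_eq_append,
        List.tail_append_singleton_of_ne_nil (by simp), List.foldl_append]
      simp [commutatorElement_def]
    constructor
    · rintro ⟨x, hx, b, rfl⟩
      obtain ⟨f, rfl⟩ := (ih x).1 hx
      refine ⟨Fin.snoc f b, ?_⟩
      simp only [key, Fin.snoc_castSucc, Fin.snoc_last]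
    · rintro ⟨f, rfl⟩
      exact ⟨_, (ih _).2 ⟨fun i => f i.castSucc, rfl⟩, f (Fin.last (k + 1)), key f⟩

lemma KC_succ_subset : ∀ k : ℕ, KC G (k + 1) ⊆ KC G k
  | 0 => fun z _ => mem_KC_zero z
  | k + 1 => by
    rintro z ⟨x, hx, b, rfl⟩
    exact ⟨x, KC_succ_subset k hx, b, rfl⟩

lemma KC_comm_right {k : ℕ} {x : G} (hx : x ∈ KC G k) (g : G) : ⁅x, g⁆ ∈ KC G k :=
  KC_succ_subset k ⟨x, hx, g, rfl⟩

lemma KC_map (φ : H →* G) : ∀ {k : ℕ} {x : H}, x ∈ KC H k → φ x ∈ KC G k
  | 0, x, _ => mem_KC_zero _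
  | k + 1, x, hx => by
    obtain ⟨y, hy, b, rfl⟩ := hx
    exact ⟨φ y, KC_map φ hy, φ b, map_commutatorElement φ y b⟩

lemma KC_lift {φ : H →* G} (hφ : Function.Surjective φ) :
    ∀ {k : ℕ} {x : G}, x ∈ KC G k → ∃ y ∈ KC H k, φ y = x
  | 0, x, _ => let ⟨y, hy⟩ := hφ x; ⟨y, mem_KC_zero _, hy⟩
  | k + 1, x, hx => by
    obtain ⟨y, hy, b, rfl⟩ := hx
    obtain ⟨y', hy', rfl⟩ := KC_lift hφ hy
    obtain ⟨b', rfl⟩ := hφ b
    exact ⟨⁅y', b'⁆, ⟨y', hy', b', rfl⟩, map_commutatorElement φ y' b'⟩

lemma KC_conj {k : ℕ} {x : G} (hx : x ∈ KC G k) (g : G) : g * x * g⁻¹ ∈ KC G k :=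
  KC_map (MulAut.conj g).toMonoidHom hx

lemma KC_comm_left {k : ℕ} {x : G} (hx : x ∈ KC G k) (g : G) : ⁅g, x⁆ ∈ KC G k := by
  have h := KC_conj (KC_comm_right hx g⁻¹) g
  convert h using 1
  simp only [commutatorElement_def]
  group

/-- The iterated commutator with a fixed element. -/
def itc (a : G) (j : ℕ) (t : G) : G := (fun s => ⁅s, a⁆)^[j] t

lemma itc_succ (a : G) (j : ℕ) (t : G) : itc a (j + 1) t = ⁅itc a j t, a⁆ :=
  Function.iterate_succ_apply' _ _ _

lemma itc_mem_KC (a : G) : ∀ (j : ℕ) (t : G), itc a j t ∈ KC G j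
  | 0, _ => mem_KC_zero _
  | j + 1, t => ⟨_, itc_mem_KC a j t, a, itc_succ a j t⟩

lemma comm_mem_of_normalizer {a : G} {A : Subgroup G} (ha : a ∈ normalizer (A : Set G)) {t : G}
    (ht : t ∈ A) : ⁅t, a⁆ ∈ A := by
  have h : a * t⁻¹ * a⁻¹ ∈ A := ((mem_normalizer_iff.1 ha) _).1 (inv_mem ht)
  simpa [commutatorElement_def, mul_assoc] using mul_mem ht h

lemma itc_mem {a : G} {A : Subgroup G} (ha : a ∈ normalizer (A : Set G)) {t : G} (ht : t ∈ A) :
    ∀ j : ℕ, itc a j t ∈ A
  | 0 => ht
  | j + 1 => by rw [itc_succ]; exact comm_mem_of_normalizer ha (itc_mem ha ht j)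

lemma map_itc (φ : H →* G) (a : H) : ∀ (j : ℕ) (t : H), φ (itc a j t) = itc (φ a) j (φ t)
  | 0, _ => rfl
  | j + 1, t => by rw [itc_succ, itc_succ, map_commutatorElement, map_itc φ a j t]

lemma commute_of_itc [Finite G] {a : G} {A : Subgroup G} (ha : a ∈ normalizer (A : Set G))
    (hc : ∀ t ∈ A, (orderOf t).Coprime (orderOf a)) :
    ∀ (j : ℕ), (∀ t ∈ A, Commute (itc a j t) a) → ∀ t ∈ A, Commute t a
  | 0, h => h
  | j + 1, h => commute_of_itc ha hc j fun t ht => by
      have hu := itc_mem ha ht j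
      have h1 := h t ht
      rw [itc_succ] at h1
      rw [← commutatorElement_eq_one_iff_commute]
      have e : orderOf a = orderOf ⁅itc a j t, a⁆ * orderOf a := by
        rw [← h1.orderOf_mul_eq_mul_orderOf_of_coprime (hc _ (comm_mem_of_normalizer ha hu))]
        conv_lhs => rw [← (MulAut.conj (itc a j t)).orderOf_eq a]
        congr 1
        simp [commutatorElement_def, MulAut.conj_apply, mul_assoc]
      exact orderOf_eq_one_iff.1 (Nat.eq_of_mul_eq_mul_right (orderOf_pos a) (by omega))

/-- A value commutes with every element whose commutator with it has coprime order. -/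
def Cent (G : Type*) [Group G] (k : ℕ) : Prop :=
  ∀ x ∈ KC G k, ∀ g : G, (orderOf ⁅g, x⁆).Coprime (orderOf x) → Commute g x

lemma cent_of_crit [Finite G] {k : ℕ}
    (h : ∀ x y : G, x ∈ KC G k → y ∈ KC G k → (orderOf x).Coprime (orderOf y) →
      (∀ r : ℕ, r.Prime → r ∣ orderOf x * orderOf y → r ∣ orderOf (x * y)) ∨
        orderOf x * orderOf y ≤ orderOf (x * y)) : Cent G k := by
  intro x hx g hcop
  have e : orderOf (⁅g, x⁆ * x) = orderOf x := by
    rw [← (MulAut.conj g).orderOf_eq x]
    congr 1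
    simp [commutatorElement_def, MulAut.conj_apply, mul_assoc]
  rw [← commutatorElement_eq_one_iff_commute, ← orderOf_eq_one_iff]
  rcases h _ _ (KC_comm_left hx g) hx hcop with h1 | h1
  · by_contra hne
    obtain ⟨r, hr, hrd⟩ := Nat.exists_prime_and_dvd hne
    have h2 := h1 r hr (dvd_mul_of_dvd_left hrd _)
    rw [e] at h2
    exact hr.ne_one (Nat.eq_one_of_dvd_coprimes hcop hrd h2)
  · rw [e] at h1
    have h2 := Nat.le_of_mul_le_mul_right (h1.trans (one_mul _).ge) (orderOf_pos x)
    have := orderOf_pos ⁅g, x⁆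
    omega

lemma Cent.of_injective {φ : H →* G} (hφ : Function.Injective φ) {k : ℕ} (h : Cent G k) :
    Cent H k := by
  intro x hx g hcop
  rw [← commutatorElement_eq_one_iff_commute]
  refine hφ ?_
  rw [map_commutatorElement, map_one, commutatorElement_eq_one_iff_commute]
  refine h _ (KC_map φ hx) _ ?_
  rwa [← map_commutatorElement, orderOf_injective φ hφ, orderOf_injective φ hφ]

/-! ### Sylow tools -/

lemma exists_orderOf_eq {p : ℕ} [Fact p.Prime] {A : Subgroup G} (hA : IsPGroup p A) {t : G}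
    (ht : t ∈ A) : ∃ a, orderOf t = p ^ a := by
  obtain ⟨a, ha⟩ := IsPGroup.iff_orderOf.1 hA ⟨t, ht⟩
  exact ⟨a, by rw [← ha, ← Subgroup.orderOf_coe]⟩

lemma coprime_orderOf {p q : ℕ} [hp : Fact p.Prime] [hq : Fact q.Prime] (hne : p ≠ q)
    {A : Subgroup G} (hA : IsPGroup p A) {t s : G} (ht : t ∈ A)
    (hs : ∃ b, orderOf s = q ^ b) : (orderOf t).Coprime (orderOf s) := by
  obtain ⟨a, ha⟩ := exists_orderOf_eq hA ht
  obtain ⟨b, hb⟩ := hs
  rw [ha, hb]
  exact Nat.Coprime.pow _ _ ((Nat.coprime_primes hp.out hq.out).2 hne)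

lemma orderOf_map_pow {φ : H →* G} {x : H} {p : ℕ} [hp : Fact p.Prime]
    (hx : ∃ a, orderOf x = p ^ a) : ∃ a, orderOf (φ x) = p ^ a := by
  obtain ⟨a, ha⟩ := hx
  obtain ⟨b, -, hb⟩ := (Nat.dvd_prime_pow hp.out).1 (ha ▸ orderOf_map_dvd φ x)
  exact ⟨b, hb⟩

/-- A `p`-element of a nilpotent normal subgroup lies in the `p`-core. -/
lemma mem_pCore_of_nilpotent_normal [Finite G] {p : ℕ} [Fact p.Prime] {N : Subgroup G}
    (hn : N.Normal) (hN : Group.IsNilpotent N) {x : G} (hx : x ∈ N)
    (hxp : ∃ a, orderOf x = p ^ a) : x ∈ pCore p G := by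
  obtain ⟨P⟩ : Nonempty (Sylow p N) := inferInstance
  have hP : (P : Subgroup N).Normal :=
    ((Group.isNilpotent_of_finite_tfae (G := N)).out 0 3 rfl rfl).1 hN p ‹_› P
  have : (P : Subgroup N).Characteristic := P.characteristic_of_normal hP
  have hn' : ((P : Subgroup N).map N.subtype).Normal := ConjAct.normal_of_characteristic_of_normal
  obtain ⟨a, ha⟩ := hxp
  exact Hall.le_pCore (P.2.map N.subtype)
    ⟨⟨x, hx⟩, GS.mem_of_normal_sylow P hP (b := a) (by rw [Subgroup.orderOf_mk, ha]), rfl⟩

lemma nilpotent_of_pp_commute [Finite G]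
    (h : ∀ (p q a b : ℕ) (x y : G), p.Prime → q.Prime → p ≠ q → orderOf x = p ^ a →
      orderOf y = q ^ b → Commute x y) : Group.IsNilpotent G := by
  refine ((Group.isNilpotent_of_finite_tfae (G := G)).out 0 3 rfl rfl).2 ?_
  intro p hp P
  refine (GS.exists_direct_complement P fun y q b hq hne hy => ?_).1
  rw [mem_centralizer_iff]
  intro t ht
  obtain ⟨a, ha⟩ := exists_orderOf_eq P.2 ht
  exact h p q a b t y hp.out hq hne.symm ha hy

/-- A Sylow subgroup of a preimage maps onto a given `p`-subgroup. -/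
lemma exists_pgroup_map [Finite H] {φ : H →* G} (hφ : Function.Surjective φ) {p : ℕ}
    [Fact p.Prime] {T : Subgroup G} (hT : IsPGroup p T) (P : Sylow p (T.comap φ)) :
    ((P : Subgroup _).map (T.comap φ).subtype).map φ = T := by
  have hs := φ.subgroupComap_surjective_of_surjective T hφ
  have htop : ((P.mapSurjective hs : Sylow p T) : Subgroup T) = ⊤ :=
    ((P.mapSurjective hs).3 (hT.to_subgroup ⊤) le_top).symm
  rw [Sylow.coe_mapSurjective] at htop
  refine le_antisymm ?_ fun t ht => ?_
  · rw [map_map]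
    rintro _ ⟨x, -, rfl⟩
    exact x.2
  · obtain ⟨x, hx, e⟩ := (htop.ge (mem_top (⟨t, ht⟩ : T)) : (⟨t, ht⟩ : T) ∈ _)
    exact ⟨x, mem_map_of_mem _ hx, congrArg Subtype.val e⟩

/-- Frattini: lifting an element of the normaliser of a `p`-subgroup. -/
lemma exists_lift_normalizer [Finite H] {φ : H →* G} (hφ : Function.Surjective φ) {p : ℕ}
    [Fact p.Prime] {T : Subgroup G} (hT : IsPGroup p T) {a : G}
    (ha : a ∈ normalizer (T : Set G)) :
    ∃ (T' : Subgroup H) (n : H), IsPGroup p T' ∧ T'.map φ = T ∧ n ∈ normalizer (T' : Set H) ∧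
      φ n = a := by
  obtain ⟨P⟩ : Nonempty (Sylow p (T.comap φ)) := inferInstance
  set E := T.comap φ with hE
  set T' := (P : Subgroup E).map E.subtype with hT'
  have hmap : T'.map φ = T := exists_pgroup_map hφ hT P
  obtain ⟨h₀, rfl⟩ := hφ a
  have hh₀ : h₀ ∈ normalizer (E : Set H) := mem_normalizer_iff.2 fun e => by
    have := (mem_normalizer_iff.1 ha) (φ e)
    simpa [hE, mem_comap] using this
  set N := normalizer (E : Set H) with hN
  have : (E.subgroupOf N).Normal := normal_in_normalizer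
  let eqv := subgroupOfEquivOfLe (le_normalizer : E ≤ N)
  let P' : Sylow p (E.subgroupOf N) := P.comapOfInjective eqv.toMonoidHom eqv.injective
    (by rw [MonoidHom.range_eq_top.2 (show Function.Surjective eqv.toMonoidHom from eqv.surjective)]; exact le_top)
  have hPN : ((P' : Subgroup _).map (E.subgroupOf N).subtype).map N.subtype = T' := by
    ext x
    simp only [hT', mem_map]
    constructor
    · rintro ⟨_, ⟨y, hy, rfl⟩, rfl⟩
      exact ⟨eqv y, hy, rfl⟩
    · rintro ⟨y, hy, rfl⟩
      exact ⟨_, ⟨eqv.symm y, by simpa [P'] using hy, rfl⟩, rfl⟩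
  have htop := Sylow.normalizer_sup_eq_top P'
  have hmem : (⟨h₀, hh₀⟩ : N) ∈ normalizer (((P' : Subgroup _).map (E.subgroupOf N).subtype) : Set N)
      ⊔ E.subgroupOf N := htop ▸ mem_top _
  rw [mem_sup_of_normal_right] at hmem
  obtain ⟨m, hm, e, he, hme⟩ := hmem
  have hm' : (m : H) ∈ normalizer (T' : Set H) := by
    rw [← hPN]
    exact le_normalizer_map N.subtype (mem_map_of_mem _ hm)
  obtain ⟨w, hw, hwe⟩ : φ (e : H) ∈ T'.map φ := hmap.symm ▸ (mem_subgroupOf.1 he : (e : H) ∈ E)
  refine ⟨T', (m : H) * w, P.2.map _, hmap, mul_mem hm' (le_normalizer hw), ?_⟩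
  rw [map_mul, hwe, ← map_mul, show (m : H) * e = h₀ from congrArg Subtype.val hme]

/-! ### The solvable case -/

section Solvable

variable [Finite G] [Group.IsSolvable G] {k : ℕ}

/-- A value of `p`-power order lies in `O_p`. -/
theorem mem_pCore_of_value {p : ℕ} [hp : Fact p.Prime] {x : G}
    (hV : ∀ y ∈ KC G k ∪ {x}, ∀ g : G, (orderOf ⁅g, y⁆).Coprime (orderOf y) → Commute g y)
    (hxp : ∃ a, orderOf x = p ^ a) : x ∈ pCore p G := by
  set P := pCore p G with hP
  set π := QuotientGroup.mk' P with hπ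
  have hπs : Function.Surjective π := QuotientGroup.mk'_surjective P
  have : Group.IsSolvable (G ⧸ P) := Group.isSolvable_of_surjective hπs
  have hbot : pCore p (G ⧸ P) = ⊥ := by
    have h1 : IsPGroup p ((pCore p (G ⧸ P)).comap π) :=
      (Hall.isPGroup_pCore p).comap_of_ker_isPGroup π
        (by rw [hπ, QuotientGroup.ker_mk']; exact Hall.isPGroup_pCore p)
    have h2 := Hall.le_pCore h1
    rw [← map_comap_eq_self_of_surjective hπs (pCore p (G ⧸ P)), eq_bot_iff]
    rintro _ ⟨z, hz, rfl⟩
    exact mem_bot.2 ((QuotientGroup.eq_one_iff z).2 (h2 hz))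
  have hxbar := orderOf_map_pow (φ := π) hxp
  have hcen : π x ∈ centralizer (fittingSubgroup (G ⧸ P) : Set (G ⧸ P)) := by
    have hle : fittingSubgroup (G ⧸ P) ≤ centralizer {π x} := by
      rw [Hall.fittingSubgroup_eq_iSup_pCore]
      refine iSup_le fun q => ?_
      obtain ⟨q, hq⟩ := q
      have : Fact q.Prime := ⟨hq⟩
      rcases eq_or_ne q p with rfl | hqp
      · simp [hbot]
      intro w hw
      rw [mem_centralizer_singleton_iff]
      have hnA : π x ∈ normalizer ((pCore q (G ⧸ P) : Subgroup _) : Set (G ⧸ P)) := by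
        simp [normalizer_eq_top]
      refine ((commute_of_itc hnA (fun t ht => coprime_orderOf hqp (Hall.isPGroup_pCore q) ht hxbar)
        k ?_) w hw).eq
      intro t ht
      obtain ⟨T', n, hT', hmap, hn, hna⟩ := exists_lift_normalizer hπs (Hall.isPGroup_pCore q) hnA
      obtain ⟨t', ht', rfl⟩ : t ∈ T'.map π := hmap.symm ▸ ht
      rw [← hna, ← map_itc, hna]
      refine Commute.map ?_ π
      set z := itc n k t'
      have hzT : z ∈ T' := itc_mem hn ht' k
      have hzK : z ∈ KC G k ∪ {x} := Or.inl (itc_mem_KC n k t')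
      have hzP : ∀ g ∈ P, Commute g z := fun g hg => hV z hzK g (by
        refine coprime_orderOf hqp.symm (Hall.isPGroup_pCore p) ?_ (exists_orderOf_eq hT' hzT)
        rw [commutatorElement_def, mul_assoc g, mul_assoc g]
        exact mul_mem hg ((inferInstance : P.Normal).conj_mem _ (inv_mem hg) z))
      set E := (pCore q (G ⧸ P)).comap π with hE
      set C := E ⊓ centralizer (P : Set G) with hC
      have hCn : C.Normal := inferInstance
      have hCnil : Group.IsNilpotent C := by
        have : Group.IsNilpotent (pCore q (G ⧸ P)) := (Hall.isPGroup_pCore q).isNilpotent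
        let ψ : C →* pCore q (G ⧸ P) := (π.domRestrict C).codRestrict _ fun c => c.2.1
        refine Subgroup.isNilpotent_of_ker_le_center ψ fun c hc => mem_center_iff.2 fun d => ?_
        have hcP : (c : G) ∈ P := (QuotientGroup.eq_one_iff _).1 (congrArg Subtype.val hc)
        exact Subtype.ext (mem_centralizer_iff.1 d.2.2 _ hcP).symm
      have hzC : z ∈ C := ⟨show π z ∈ pCore q (G ⧸ P) from hmap.le (mem_map_of_mem π hzT),
        mem_centralizer_iff.2 fun g hg => hzP g hg⟩
      have hzq := mem_pCore_of_nilpotent_normal hCn hCnil hzC (exists_orderOf_eq hT' hzT)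
      exact hV x (Or.inr rfl) z (by
        refine coprime_orderOf hqp (Hall.isPGroup_pCore q) ?_ hxp
        rw [commutatorElement_def, mul_assoc z, mul_assoc z]
        exact mul_mem hzq ((inferInstance : (pCore q G).Normal).conj_mem _ (inv_mem hzq) x))
    rw [mem_centralizer_iff]
    exact fun w hw => mem_centralizer_singleton_iff.1 (hle hw)
  have h := mem_pCore_of_nilpotent_normal inferInstance Hall.fittingSubgroup_isNilpotent
    (Hall.centralizer_fittingSubgroup_le hcen) hxbar
  rw [hbot, mem_bot] at h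
  exact (QuotientGroup.eq_one_iff x).1 h

theorem mem_fitting_of_value (hC : Cent G k) {p : ℕ} [Fact p.Prime] {x : G} (hx : x ∈ KC G k)
    (hxp : ∃ a, orderOf x = p ^ a) : x ∈ fittingSubgroup G :=
  Hall.pCore_le_fittingSubgroup p (mem_pCore_of_value (k := k)
    (fun y hy => hy.elim (fun h => hC y h) fun h => h ▸ hC x hx) hxp)

/-- The quotient by the Fitting subgroup is nilpotent. -/
theorem nilpotent_quotient_fitting (hC : Cent G k) :
    Group.IsNilpotent (G ⧸ fittingSubgroup G) := by
  set π := QuotientGroup.mk' (fittingSubgroup G)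
  have hπs : Function.Surjective π := QuotientGroup.mk'_surjective _
  have : Group.IsSolvable (G ⧸ fittingSubgroup G) := Group.isSolvable_of_surjective hπs
  set Q := G ⧸ fittingSubgroup G
  have key : ∀ (q r : ℕ) [Fact q.Prime] [Fact r.Prime], q ≠ r → ∀ u : Q,
      (∃ a, orderOf u = r ^ a) → ∀ w ∈ pCore q Q, Commute w u := by
    intro q r _ _ hqr u hu w hw
    have hnA : u ∈ normalizer ((pCore q Q : Subgroup Q) : Set Q) := by simp [normalizer_eq_top]
    refine commute_of_itc hnA (fun t ht => coprime_orderOf hqr (Hall.isPGroup_pCore q) ht hu) k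
      (fun t ht => ?_) w hw
    obtain ⟨T', n, hT', hmap, hn, hna⟩ := exists_lift_normalizer hπs (Hall.isPGroup_pCore q) hnA
    obtain ⟨t', ht', rfl⟩ : t ∈ T'.map π := hmap.symm ▸ ht
    rw [← hna, ← map_itc]
    have h := mem_fitting_of_value hC (p := q) (itc_mem_KC n k t')
      (exists_orderOf_eq hT' (itc_mem hn ht' k))
    rw [show π (itc n k t') = 1 from (QuotientGroup.eq_one_iff _).2 h]
    exact Commute.one_left _
  set F := fittingSubgroup Q with hF
  set W := F ⊓ centralizer (F : Set Q) with hW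
  have hWn : W.Normal := inferInstance
  set ρ := QuotientGroup.mk' W with hρ
  have hρs : Function.Surjective ρ := QuotientGroup.mk'_surjective _
  -- commutators of coprime elements centralise the Fitting subgroup
  have hnilW : Group.IsNilpotent (Q ⧸ W) := by
    refine nilpotent_of_pp_commute fun p q a b x y hp hq hpq hx hy => ?_
    have := Fact.mk hp; have := Fact.mk hq
    have lift : ∀ (r : ℕ) [Fact r.Prime] (z : Q ⧸ W), (∃ c, orderOf z = r ^ c) →
        ∃ z', (∃ c, orderOf z' = r ^ c) ∧ ρ z' = z := by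
      intro r _ z hz
      obtain ⟨c, hc⟩ := hz
      have hT : IsPGroup r (zpowers z) := IsPGroup.of_card (by rw [Nat.card_zpowers, hc])
      obtain ⟨S⟩ : Nonempty (Sylow r ((zpowers z).comap ρ)) := inferInstance
      obtain ⟨z', hz', e⟩ : z ∈ ((S : Subgroup _).map ((zpowers z).comap ρ).subtype).map ρ :=
        (exists_pgroup_map hρs hT S).symm ▸ mem_zpowers z
      exact ⟨z', exists_orderOf_eq (S.2.map _) hz', e⟩
    obtain ⟨u, hu, rfl⟩ := lift p x ⟨a, hx⟩
    obtain ⟨v, hv, rfl⟩ := lift q y ⟨b, hy⟩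
    rw [← commutatorElement_eq_one_iff_commute, ← map_commutatorElement, hρ,
      QuotientGroup.mk'_apply, QuotientGroup.eq_one_iff]
    have hcF : ⁅u, v⁆ ∈ centralizer (F : Set Q) := by
      rw [mem_centralizer_iff]
      intro w hw
      have hle : F ≤ centralizer {⁅u, v⁆} := by
        refine hF.le.trans ((Hall.fittingSubgroup_eq_iSup_pCore (G := Q)).le.trans ?_)
        refine iSup_le fun r => ?_
        obtain ⟨r, hr⟩ := r
        have : Fact r.Prime := ⟨hr⟩
        intro w hw
        rw [mem_centralizer_singleton_iff]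
        have hn : ∀ s g : Q, s ∈ pCore r Q → g * s * g⁻¹ ∈ pCore r Q := fun s g hs =>
          (inferInstance : (pCore r Q).Normal).conj_mem s hs g
        rcases eq_or_ne r p with rfl | hrp
        · -- `v` centralises the core
          have c1 : ∀ s ∈ pCore r Q, v * s * v⁻¹ = s := fun s hs => by
            rw [(key r q hpq v hv s hs).symm.eq, mul_inv_cancel_right]
          have c2 : u * (v * (u⁻¹ * w * u) * v⁻¹) * u⁻¹ = w := by
            rw [c1 _ (by have := hn w u⁻¹ hw; rwa [inv_inv] at this)]; group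
          have c3 : v * w * v⁻¹ = w := c1 w hw
          have : ⁅u, v⁆ * w * ⁅u, v⁆⁻¹ = w := by
            have c4 : v⁻¹ * w * v = w := by
              conv_lhs => rw [← c3]
              group
            rw [commutatorElement_def]
            calc _ = u * (v * (u⁻¹ * (v⁻¹ * w * v) * u) * v⁻¹) * u⁻¹ := by group
              _ = w := by rw [c4, c2]
          exact (eq_mul_of_mul_inv_eq this).symm
        · have c1 : ∀ s ∈ pCore r Q, u * s * u⁻¹ = s := fun s hs => by
            rw [(key r p hrp u hu s hs).symm.eq, mul_inv_cancel_right]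
          have c2 : u⁻¹ * (v⁻¹ * w * v) * u = v⁻¹ * w * v := by
            have h := c1 _ (show v⁻¹ * w * v ∈ pCore r Q by have := hn w v⁻¹ hw; rwa [inv_inv] at this)
            conv_lhs => rw [← h]
            group
          have : ⁅u, v⁆ * w * ⁅u, v⁆⁻¹ = w := by
            rw [commutatorElement_def]
            calc _ = u * (v * (u⁻¹ * (v⁻¹ * w * v) * u) * v⁻¹) * u⁻¹ := by group
              _ = u * w * u⁻¹ := by rw [c2]; group
              _ = w := c1 w hw
          exact (eq_mul_of_mul_inv_eq this).symm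
      exact mem_centralizer_singleton_iff.1 (hle hw)
    exact ⟨Hall.centralizer_fittingSubgroup_le hcF, hcF⟩
  -- all elements of prime power order lie in the Fitting subgroup
  have hall : F = ⊤ := by
    refine GS.eq_top_of_prime_power_elements fun u p a hp hu => ?_
    have := Fact.mk hp
    have hρu := mem_pCore_of_nilpotent_normal (p := p) (x := ρ u)
      (inferInstance : (fittingSubgroup (Q ⧸ W)).Normal) Hall.fittingSubgroup_isNilpotent
      ((Hall.fittingSubgroup_eq_top (G := Q ⧸ W)).symm.le (mem_top _)) (orderOf_map_pow ⟨a, hu⟩)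
    set L := (pCore p (Q ⧸ W)).comap ρ with hL
    have hLnil : Group.IsNilpotent L := by
      refine nilpotent_of_pp_commute fun r s c d x y hr hs hrs hx hy => ?_
      have := Fact.mk hr; have := Fact.mk hs
      have hmemW : ∀ (t : ℕ) [Fact t.Prime], t ≠ p → ∀ z : L, (∃ e, orderOf z = t ^ e) →
          (z : Q) ∈ W := by
        intro t _ htp z hz
        have h1 := coprime_orderOf (s := ρ z) htp.symm (Hall.isPGroup_pCore p) z.2
          (orderOf_map_pow (by simpa [Subgroup.orderOf_coe] using hz))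
        rw [Nat.coprime_self, orderOf_eq_one_iff] at h1
        exact (QuotientGroup.eq_one_iff _).1 h1
      refine Subtype.ext ?_
      have hcomm : ∀ (r s : ℕ) [Fact r.Prime] [Fact s.Prime], r ≠ s → s ≠ p → ∀ x y : L,
          (∃ e, orderOf x = r ^ e) → (∃ e, orderOf y = s ^ e) → Commute (x : Q) (y : Q) := by
        intro r s _ _ hrs hsp x y hx hy
        have hy' : (y : Q) ∈ pCore s Q := mem_pCore_of_nilpotent_normal inferInstance
          Hall.fittingSubgroup_isNilpotent (hmemW s hsp y hy).1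
          (by simpa [Subgroup.orderOf_coe] using hy)
        exact (key s r hrs.symm x (by simpa [Subgroup.orderOf_coe] using hx) y hy').symm
      rcases eq_or_ne s p with rfl | hsp
      · exact (hcomm s r hrs.symm hrs y x ⟨d, hy⟩ ⟨c, hx⟩).symm.eq
      · exact (hcomm r s hrs hsp x y ⟨c, hx⟩ ⟨d, hy⟩).eq
    exact Hall.le_fittingSubgroup hLnil (show u ∈ L from hρu)
  exact Group.isNilpotent_top.1 (hall ▸ Hall.fittingSubgroup_isNilpotent)

theorem lcs_le_fitting (hC : Cent G k) :
    (⊤ : Subgroup G).lowerCentralSeries k ≤ fittingSubgroup G := by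
  have := nilpotent_quotient_fitting hC
  set π := QuotientGroup.mk' (fittingSubgroup G)
  have hπs : Function.Surjective π := QuotientGroup.mk'_surjective _
  set Q := G ⧸ fittingSubgroup G
  have hbot : ∀ z ∈ KC Q k, z = 1 := by
    intro z hz
    let e := Sylow.directProductOfNormal (G := Q) fun {p} _ P =>
      ((Group.isNilpotent_of_finite_tfae (G := Q)).out 0 3 rfl rfl).1 ‹_› p ‹_› P
    apply e.symm.injective
    rw [map_one]
    ext ⟨p, hp⟩ P
    have := Fact.mk (Nat.prime_of_mem_primeFactors hp)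
    set c : (P : Subgroup Q) := e.symm z ⟨p, hp⟩ P with hcdef
    let ev : Q →* (P : Subgroup Q) := MonoidHom.mk' (fun w => e.symm w ⟨p, hp⟩ P)
      (fun v w => by simp only [map_mul]; rfl)
    have hc : c ∈ KC (P : Subgroup Q) k := KC_map ev hz
    obtain ⟨S⟩ : Nonempty (Sylow p ((P : Subgroup Q).comap π)) := inferInstance
    set T := (S : Subgroup _).map ((P : Subgroup Q).comap π).subtype with hT
    have hmap : T.map π = P := exists_pgroup_map hπs P.2 S
    let ψ : T →* (P : Subgroup Q) :=
      (π.domRestrict T).codRestrict _ fun t => hmap ▸ mem_map_of_mem π t.2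
    have hψ : Function.Surjective ψ := fun s => by
      obtain ⟨t, ht, e⟩ : (s : Q) ∈ T.map π := hmap.symm ▸ s.2
      exact ⟨⟨t, ht⟩, Subtype.ext e⟩
    obtain ⟨y, hy, hye⟩ := KC_lift hψ hc
    have h := mem_fitting_of_value hC (p := p) (KC_map T.subtype hy)
      (exists_orderOf_eq (S.2.map _) y.2)
    refine (congrArg Subtype.val hye).symm.trans ?_
    exact (QuotientGroup.eq_one_iff _).2 h
  have hclo : ∀ j : ℕ, (⊤ : Subgroup G).lowerCentralSeries j ≤ closure (KC G j) := by
    intro j
    induction j with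
    | zero => exact fun x _ => Subgroup.subset_closure (mem_KC_zero x)
    | succ j ih =>
      have hn : (closure (KC G (j + 1))).Normal := ⟨fun x hx g => by
        induction hx using closure_induction with
        | mem y hy => exact subset_closure (KC_conj hy g)
        | one => simp
        | mul a b _ _ ha hb => simpa [mul_assoc] using mul_mem ha hb
        | inv a _ ha => simpa [mul_assoc] using inv_mem ha⟩
      rw [Subgroup.lowerCentralSeries_succ, Subgroup.commutator_le]
      intro a ha b _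
      have ha' := ih ha
      clear ha
      induction ha' using closure_induction with
      | mem y hy => exact subset_closure ⟨y, hy, b, rfl⟩
      | one => simp
      | mul x y _ _ hx hy =>
        rw [show ⁅x * y, b⁆ = x * ⁅y, b⁆ * x⁻¹ * ⁅x, b⁆ by simp [commutatorElement_def, mul_assoc]]
        exact mul_mem (hn.conj_mem _ hy x) hx
      | inv x _ hx =>
        rw [show ⁅x⁻¹, b⁆ = x⁻¹ * ⁅x, b⁆⁻¹ * x⁻¹⁻¹ by simp [commutatorElement_def, mul_assoc]]
        exact hn.conj_mem _ (inv_mem hx) _
  refine (hclo k).trans ((closure_le _).2 fun z hz => ?_)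
  exact (QuotientGroup.eq_one_iff z).1 (hbot _ (KC_map π hz))

theorem lcs_nilpotent (hC : Cent G k) :
    Group.IsNilpotent ((⊤ : Subgroup G).lowerCentralSeries k) := by
  have := Hall.fittingSubgroup_isNilpotent (G := G)
  exact Group.nilpotent_of_mulEquiv (subgroupOfEquivOfLe (lcs_le_fitting hC))

end Solvable

end Cfsg.Agent.Lib.IterComm
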