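import Cfsg.Agent.Lib.IterComm.KComm
import Cfsg.Agent.Lib.Involution.BaerSuzuki

/-!
The local structure of a simple quotient, all of whose proper subgroups lift to solvable groups,
of a group with the coprime order condition on commutator values.
-/

set_option autoImplicit false

namespace Cfsg.Agent.Lib.IterComm

open Subgroup Cfsg
open scoped commutatorElement Pointwise

variable {G Q : Type*} [Group G] [Group Q]

/-- The setting of a minimal counterexample. -/
structure Ctx (π : G →* Q) (k : ℕ) : Prop where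
  cent : Cent G k
  surj : Function.Surjective π
  solv : ∀ L : Subgroup Q, L ≠ ⊤ → Group.IsSolvable (L.comap π)
  simple : IsSimpleGroup Q
  ns : ¬ Group.IsSolvable Q

/-- Nontrivial images of values of `p`-power order. -/
def XS (π : G →* Q) (k p : ℕ) : Set Q :=
  {x | x ≠ 1 ∧ ∃ y ∈ KC G k, (∃ a, orderOf y = p ^ a) ∧ π y = x}

variable {π : G →* Q} {k p : ℕ}

lemma XS_conj (hs : Function.Surjective π) {x : Q} (hx : x ∈ XS π k p) (g : Q) :
    g * x * g⁻¹ ∈ XS π k p := by
  obtain ⟨h1, y, hy, ⟨a, ha⟩, rfl⟩ := hx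
  obtain ⟨g, rfl⟩ := hs g
  refine ⟨fun h => h1 ?_, g * y * g⁻¹, KC_conj hy g,
    ⟨a, ((MulAut.conj g).orderOf_eq y).trans ha⟩, by simp⟩
  simpa [mul_assoc] using congrArg (fun t => (π g)⁻¹ * t * π g) h

variable [Finite G] [Finite Q] [hp : Fact p.Prime]

namespace Ctx

variable (h : Ctx π k)
include h

omit hp [Finite G] in
lemma nontrivial : Nontrivial Q := h.simple.toNontrivial

omit hp [Finite G] [Finite Q] in
lemma normalizer_ne_top {A : Subgroup Q} (h1 : A ≠ ⊥) (h2 : A ≠ ⊤) :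
    normalizer (A : Set Q) ≠ ⊤ := by
  intro e
  rcases h.simple.eq_bot_or_eq_top_of_normal A (normalizer_eq_top_iff.1 e) with e' | e'
  · exact h1 e'
  · exact h2 e'

omit [Finite G] in
lemma pgroup_ne_top {A : Subgroup Q} (hA : IsPGroup p A) : A ≠ ⊤ := by
  intro e
  subst e
  have := hA.isNilpotent
  have : Group.IsNilpotent Q := Group.isNilpotent_top.1 this
  exact h.ns inferInstance

omit hp [Finite G] in
lemma centralizer_ne_top {f : Q} (hf : f ≠ 1) : centralizer ({f} : Set Q) ≠ ⊤ := by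
  intro e
  have hz : f ∈ center Q := mem_center_iff.2 fun g =>
    (mem_centralizer_singleton_iff.1 (e.symm ▸ mem_top g))
  rcases h.simple.eq_bot_or_eq_top_of_normal (center Q) inferInstance with e' | e'
  · exact hf (mem_bot.1 (e' ▸ hz))
  · have : Group.IsNilpotent Q :=
      Subgroup.isNilpotent_of_ker_le_center (1 : Q →* Unit) (by rw [e']; exact le_top)
    exact h.ns inferInstance

/-- In a proper subgroup the values generate a `p`-group. -/
lemma isPGroup_XS {L : Subgroup Q} (hL : L ≠ ⊤) : IsPGroup p (closure (XS π k p ∩ L)) := by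
  have := h.solv L hL
  set L₀ := L.comap π
  refine (((Hall.isPGroup_pCore p (G := L₀)).map L₀.subtype).map π).to_le ((closure_le _).2 ?_)
  rintro x ⟨⟨-, y, hy, hyp, rfl⟩, hxL⟩
  refine mem_map_of_mem _ (mem_map_of_mem L₀.subtype (x := (⟨y, hxL⟩ : L₀)) ?_)
  refine mem_pCore_of_value (k := k) (fun z hz g hcop => ?_)
    (hyp.imp fun a ha => (Subgroup.orderOf_mk _ _).trans ha)
  have hz' : (z : G) ∈ KC G k := hz.elim (KC_map L₀.subtype) fun e => by
    rw [Set.mem_singleton_iff] at e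
    exact e ▸ hy
  refine Subtype.ext (h.cent _ hz' (g : G) ?_).eq
  rwa [← Subgroup.orderOf_coe z, ← Subgroup.orderOf_coe ⁅g, z⁆,
    show ((⁅g, z⁆ : L₀) : G) = ⁅(g : G), (z : G)⁆ from map_commutatorElement L₀.subtype g z] at hcop

lemma XS_mem_sylow {L : Subgroup Q} (hL : L ≠ ⊤) :
    ∃ S : Sylow p Q, XS π k p ∩ L ⊆ (S : Subgroup Q) := by
  obtain ⟨S, hS⟩ := (h.isPGroup_XS (p := p) hL).exists_le_sylow
  exact ⟨S, fun x hx => hS (Subgroup.subset_closure hx)⟩

omit [Finite Q] in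
lemma exists_XS_of_not_commute {T : Subgroup Q} (hT : IsPGroup p T) {a : Q}
    (ha : a ∈ normalizer (T : Set Q)) (hcop : (orderOf a).Coprime p)
    (hne : ∃ t ∈ T, ¬ Commute t a) : ∃ x ∈ XS π k p, x ∈ T := by
  obtain ⟨T', n, hT', hmap, hn, hna⟩ := exists_lift_normalizer h.surj hT ha
  have : Finite Q := Finite.of_surjective π h.surj
  by_contra hcon
  push Not at hcon
  obtain ⟨t₀, ht₀, hnc⟩ := hne
  refine hnc (commute_of_itc ha (fun t ht => ?_) k (fun t ht => ?_) t₀ ht₀)
  · obtain ⟨c, hc⟩ := exists_orderOf_eq hT ht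
    rw [hc]
    exact (hcop.symm).pow_left c
  · obtain ⟨t', ht', rfl⟩ : t ∈ T'.map π := hmap.symm ▸ ht
    rw [← hna, ← map_itc]
    have hz := itc_mem hn ht' k
    by_cases he : π (itc n k t') = 1
    · rw [he]; exact Commute.one_left _
    · exact absurd (hmap ▸ mem_map_of_mem π hz)
        (hcon _ ⟨he, _, itc_mem_KC n k t', exists_orderOf_eq hT' hz, rfl⟩)

lemma exists_XS (hp' : p ∣ Nat.card Q) : ∃ x, x ∈ XS π k p := by
  by_contra hcon
  push Not at hcon
  have hfr : HasNormalPComplement p Q := Transfer.frobenius_criterion fun T hT a ha hcop => by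
    rw [mem_centralizer_iff]
    intro t ht
    by_contra hc
    obtain ⟨x, hx, -⟩ := h.exists_XS_of_not_commute hT ha hcop ⟨t, ht, hc⟩
    exact hcon x hx
  obtain ⟨P, N, hN, hc⟩ := hfr
  rcases h.simple.eq_bot_or_eq_top_of_normal N hN with e | e
  · exact h.pgroup_ne_top P.2 (by simpa [e] using hc.sup_eq_top)
  · have h1 : (P : Subgroup Q) = ⊥ := by simpa [e] using hc.disjoint
    exact P.ne_bot_of_dvd_card hp' h1

lemma exists_XS_mem (P : Sylow p Q) (hp' : p ∣ Nat.card Q) :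
    ∃ x ∈ XS π k p, x ∈ (P : Subgroup Q) := by
  obtain ⟨x, hx⟩ := h.exists_XS hp'
  obtain ⟨h1, y, -, hyp, rfl⟩ := id hx
  obtain ⟨a, ha⟩ := orderOf_map_pow (φ := π) hyp
  obtain ⟨S, hS⟩ := (IsPGroup.of_card (p := p) (n := a)
    (by rw [Nat.card_zpowers, ha] : Nat.card (zpowers (π y)) = p ^ a)).exists_le_sylow
  obtain ⟨g, rfl⟩ := MulAction.exists_smul_eq Q S P
  refine ⟨g * π y * g⁻¹, XS_conj h.surj hx g, Transfer.mem_smul_sylow.2 ?_⟩
  simpa [mul_assoc] using hS (mem_zpowers _)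

/-- The subgroup generated by the values in a Sylow subgroup. -/
lemma closure_XS_le (P : Sylow p Q) :
    closure (XS π k p ∩ (P : Subgroup Q)) ≤ (P : Subgroup Q) :=
  (closure_le _).2 Set.inter_subset_right

lemma mem_normalizer_of_image {g : Q} {s : Set Q} (hg : ∀ t ∈ s, g * t * g⁻¹ ∈ closure s) :
    g ∈ normalizer ((closure s : Subgroup Q) : Set Q) := by
  have hle : (closure s).map (MulAut.conj g).toMonoidHom ≤ closure s := by
    rw [MonoidHom.map_closure, closure_le]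
    rintro _ ⟨t, ht, rfl⟩
    exact hg t ht
  have heq : (closure s).map (MulAut.conj g).toMonoidHom = closure s :=
    eq_of_le_of_card_ge hle
      (Nat.card_congr ((closure s).equivMapOfInjective _ (MulAut.conj g).injective).toEquiv).le
  rw [mem_normalizer_iff]
  intro n
  conv_rhs => rw [← heq]
  exact (mem_map_iff_mem (f := (MulAut.conj g).toMonoidHom) (MulAut.conj g).injective).symm

/-- Two Sylow subgroups sharing a value contain the same values. -/
theorem XS_eq {P S : Sylow p Q} {x : Q} (hx : x ∈ XS π k p) (hxP : x ∈ (P : Subgroup Q))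
    (hxS : x ∈ (S : Subgroup Q)) :
    XS π k p ∩ (P : Subgroup Q) = XS π k p ∩ (S : Subgroup Q) := by
  let V : Sylow p Q → Set Q := fun P => XS π k p ∩ (P : Subgroup Q)
  by_contra hne
  obtain ⟨⟨P₁, P₂⟩, ⟨⟨x₀, hx₀, hx₀'⟩, hne'⟩, hmax⟩ := Set.exists_max_image
    {q : Sylow p Q × Sylow p Q | (V q.1 ∩ V q.2).Nonempty ∧ V q.1 ≠ V q.2}
    (fun q => (V q.1 ∩ V q.2).ncard) (Set.toFinite _)
    ⟨(P, S), ⟨x, ⟨hx, hxP⟩, hx, hxS⟩, hne⟩
  simp only at hmax hne'
  set S₀ := V P₁ ∩ V P₂ with hS₀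
  set Q₀ := closure S₀ with hQ₀
  have hsat : ∀ t ∈ XS π k p, t ∈ Q₀ → t ∈ S₀ := fun t ht htQ =>
    ⟨⟨ht, (closure_le _).2 (fun u hu => hu.1.2) htQ⟩, ht, (closure_le _).2 (fun u hu => hu.2.2) htQ⟩
  have hfind : ∀ R : Sylow p Q, S₀ ⊆ V R → ¬ V R ⊆ S₀ →
      ∃ A ∈ V R, A ∈ normalizer (Q₀ : Set Q) ∧ A ∉ S₀ := by
    intro R hsub hns
    obtain ⟨A₀, hA₀, hA₀'⟩ := Set.not_subset.1 hns
    have : Group.IsNilpotent (R : Subgroup Q) := R.2.isNilpotent
    set N := (R : Subgroup Q) ⊓ normalizer (Q₀ : Set Q) with hN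
    by_cases hNR : N = R
    · exact ⟨A₀, hA₀, (hNR.ge hA₀.2).2, hA₀'⟩
    · have hlt : N.subgroupOf (R : Subgroup Q) < ⊤ := by
        rw [lt_top_iff_ne_top, Ne, subgroupOf_eq_top]
        exact fun e => hNR (le_antisymm inf_le_left e)
      obtain ⟨⟨y, hyR⟩, hy, hy'⟩ :=
        SetLike.exists_of_lt ((Group.normalizerCondition_of_isNilpotent) _ hlt)
      have hQR : Q₀ ≤ N := le_inf ((closure_le _).2 fun u hu => (hsub hu).2) le_normalizer
      have hyN : ∀ n : Q, n ∈ N → y * n * y⁻¹ ∈ N := fun n hn =>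
        ((mem_normalizer_iff.mp hy) ⟨n, hn.1⟩).mp hn
      obtain ⟨s, hs, hsn⟩ : ∃ s ∈ S₀, y * s * y⁻¹ ∉ Q₀ := by
        by_contra hc
        push Not at hc
        exact hy' (show y ∈ N from ⟨hyR, h.mem_normalizer_of_image hc⟩)
      have hmem := hyN s (hQR (Subgroup.subset_closure hs))
      exact ⟨_, ⟨XS_conj h.surj hs.1.1 y, hmem.1⟩, hmem.2,
        fun hA => hsn (Subgroup.subset_closure hA)⟩
  have hcard : ∀ R R' : Sylow p Q, (V R).ncard = (V R').ncard := by
    intro R R'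
    obtain ⟨g, rfl⟩ := MulAction.exists_smul_eq Q R R'
    rw [show V (g • R) = (fun t => g * t * g⁻¹) '' V R from ?_,
      Set.ncard_image_of_injective _ fun a b e => by simpa using e]
    ext t
    constructor
    · rintro ⟨ht, htR⟩
      refine ⟨g⁻¹ * t * g, ⟨by simpa using XS_conj h.surj ht g⁻¹,
        Transfer.mem_smul_sylow.1 htR⟩, by group⟩
    · rintro ⟨u, hu, rfl⟩
      exact ⟨XS_conj h.surj hu.1 g, Transfer.mem_smul_sylow.2
        (by rw [show g⁻¹ * (g * u * g⁻¹) * g = u by group]; exact hu.2)⟩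
  have hns₁ : ¬ V P₁ ⊆ S₀ := fun hc => hne'
    (Set.eq_of_subset_of_ncard_le (hc.trans Set.inter_subset_right) (hcard _ _).le)
  have hns₂ : ¬ V P₂ ⊆ S₀ := fun hc => hne'
    (Set.eq_of_subset_of_ncard_le (hc.trans Set.inter_subset_left) (hcard _ _).le).symm
  obtain ⟨A, hA, hAn, hA'⟩ := hfind P₁ Set.inter_subset_left hns₁
  obtain ⟨B, hB, hBn, hB'⟩ := hfind P₂ Set.inter_subset_right hns₂
  have hQ₀ne : Q₀ ≠ ⊥ := fun e =>
    hx₀.1.1 (mem_bot.1 (e ▸ Subgroup.subset_closure ⟨hx₀, hx₀'⟩ : x₀ ∈ (⊥ : Subgroup Q)))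
  have hQ₀P : Q₀ ≤ P₁ := (closure_le _).2 fun u hu => hu.1.2
  obtain ⟨P₃, hP₃⟩ := h.XS_mem_sylow (p := p)
    (h.normalizer_ne_top hQ₀ne (h.pgroup_ne_top (P₁.2.to_le hQ₀P)))
  have h3 : S₀ ⊆ V P₃ := fun u hu =>
    ⟨hu.1.1, hP₃ ⟨hu.1.1, le_normalizer (Subgroup.subset_closure hu)⟩⟩
  have hkey : ∀ R, S₀ ⊆ V R → ∀ C ∈ V R, C ∈ normalizer (Q₀ : Set Q) → C ∉ S₀ → V R = V P₃ := by
    intro R hsub C hC hCn hC'
    by_contra hne''
    have hC3 : C ∈ V P₃ := ⟨hC.1, hP₃ ⟨hC.1, hCn⟩⟩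
    have hlt : S₀ ⊂ V R ∩ V P₃ :=
      ⟨Set.subset_inter hsub h3, fun hc => hC' (hc ⟨hC, hC3⟩)⟩
    exact absurd (hmax (R, P₃) ⟨⟨C, hC, hC3⟩, hne''⟩)
      (not_le.mpr (Set.ncard_lt_ncard hlt (Set.toFinite _)))
  exact hne' ((hkey P₁ Set.inter_subset_left A hA hAn hA').trans
    (hkey P₂ Set.inter_subset_right B hB hBn hB').symm)

lemma mem_normalizer_XS {P : Sylow p Q} {g x : Q} (hx : x ∈ XS π k p) (hxP : x ∈ (P : Subgroup Q))
    (hgx : g * x * g⁻¹ ∈ (P : Subgroup Q)) :
    g ∈ normalizer ((closure (XS π k p ∩ (P : Subgroup Q)) : Subgroup Q) : Set Q) := by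
  refine h.mem_normalizer_of_image fun t ht => Subgroup.subset_closure ?_
  rw [h.XS_eq (P := P) (S := g • P) (XS_conj h.surj hx g) hgx
    (Transfer.mem_smul_sylow.2 (by simpa [mul_assoc] using hxP))]
  exact ⟨XS_conj h.surj ht.1 g, Transfer.mem_smul_sylow.2
    (by rw [show g⁻¹ * (g * t * g⁻¹) * g = t by group]; exact ht.2)⟩

/-- A proper subgroup containing a value of `P` normalises the values of `P`. -/
lemma le_normalizer_XS {P : Sylow p Q} {x : Q} (hx : x ∈ XS π k p) (hxP : x ∈ (P : Subgroup Q))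
    {L : Subgroup Q} (hL : L ≠ ⊤) (hxL : x ∈ L) :
    L ≤ normalizer ((closure (XS π k p ∩ (P : Subgroup Q)) : Subgroup Q) : Set Q) := by
  intro g hg
  obtain ⟨S, hS⟩ := h.XS_mem_sylow (p := p) hL
  have hgx : g * x * g⁻¹ ∈ XS π k p ∩ L :=
    ⟨XS_conj h.surj hx g, mul_mem (mul_mem hg hxL) (inv_mem hg)⟩
  refine h.mem_normalizer_XS hx hxP ?_
  have hmem : g * x * g⁻¹ ∈ XS π k p ∩ (S : Subgroup Q) := ⟨hgx.1, hS hgx⟩
  rw [← h.XS_eq hx hxP (hS ⟨hx, hxL⟩)] at hmem
  exact hmem.2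

lemma exists_central_XS (P : Sylow p Q) (hp' : p ∣ Nat.card Q) :
    ∃ z ∈ XS π k p, z ∈ (P : Subgroup Q) ∧ ∀ g ∈ (P : Subgroup Q), Commute g z := by
  obtain ⟨x, hx, hxP⟩ := h.exists_XS_mem P hp'
  have : Group.IsNilpotent (P : Subgroup Q) := P.2.isNilpotent
  obtain ⟨n, hn⟩ := (isNilpotent_iff_lowerCentralSeries (P : Subgroup Q)).1 this
  have key : ∀ i j : ℕ, i + j = n → ∀ x ∈ XS π k p, x ∈ (P : Subgroup Q).lowerCentralSeries j →
      ∃ z ∈ XS π k p, z ∈ (P : Subgroup Q) ∧ ∀ g ∈ (P : Subgroup Q), Commute g z := by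
    intro i
    induction i with
    | zero =>
      intro j hj x hx hxj
      obtain rfl : j = n := by omega
      exact absurd (mem_bot.1 (hn ▸ hxj)) hx.1
    | succ i ih =>
      intro j hj x hx hxj
      have hxP := lowerCentralSeries_le_self _ _ hxj
      by_cases hc : ∀ g ∈ (P : Subgroup Q), Commute g x
      · exact ⟨x, hx, hxP, hc⟩
      push Not at hc
      obtain ⟨g, hg, hgx⟩ := hc
      refine ih (j + 1) (by omega) ⁅x, g⁆ ?_ ?_
      · obtain ⟨-, y, hy, ⟨a, ha⟩, rfl⟩ := hx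
        obtain ⟨S, hS⟩ := (IsPGroup.of_card (p := p) (n := a)
          ((Nat.card_zpowers _).trans ((Subgroup.orderOf_mk y
            (show y ∈ (P : Subgroup Q).comap π from hxP)).trans ha))).exists_le_sylow
        have hmap := exists_pgroup_map h.surj P.2 S
        obtain ⟨g', hg', rfl⟩ : g ∈ ((S : Subgroup _).map ((P : Subgroup Q).comap π).subtype).map π :=
          hmap.symm ▸ hg
        have hy' : y ∈ (S : Subgroup _).map ((P : Subgroup Q).comap π).subtype :=
          ⟨_, hS (mem_zpowers _), rfl⟩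
        refine ⟨fun e => hgx ((commutatorElement_eq_one_iff_commute.1 e).symm), ⁅y, g'⁆,
          KC_comm_right hy g', exists_orderOf_eq (S.2.map ((P : Subgroup Q).comap π).subtype) ?_, map_commutatorElement π y g'⟩
        rw [commutatorElement_def]
        exact mul_mem (mul_mem (mul_mem hy' hg') (inv_mem hy')) (inv_mem hg')
      · rw [Subgroup.lowerCentralSeries_succ]
        exact commutator_mem_commutator hxj hg
  exact key n 0 (by omega) x hx (by simpa using hxP)

lemma centralizer_le_normalizer_XS {P : Sylow p Q} {f : Q} (hf : f ≠ 1)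
    (hfP : f ∈ (P : Subgroup Q)) :
    centralizer ({f} : Set Q) ≤
      normalizer ((closure (XS π k p ∩ (P : Subgroup Q)) : Subgroup Q) : Set Q) := by
  have hpdvd : p ∣ Nat.card Q := by
    obtain ⟨a, ha⟩ := exists_orderOf_eq P.2 hfP
    rcases a with _ | a
    · exact absurd (orderOf_eq_one_iff.1 (by simpa using ha)) hf
    · exact (dvd_pow_self p a.succ_ne_zero).trans (ha ▸ orderOf_dvd_natCard f)
  obtain ⟨z, hz, hzP, hzc⟩ := h.exists_central_XS P hpdvd
  exact h.le_normalizer_XS hz hzP (h.centralizer_ne_top hf)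
    (mem_centralizer_singleton_iff.2 (hzc f hfP).symm.eq)

omit [Finite G] in
lemma dvd_card_of_mem (P : Sylow p Q) {f : Q} (hf : f ≠ 1) (hfP : f ∈ (P : Subgroup Q)) :
    p ∣ Nat.card Q := by
  obtain ⟨a, ha⟩ := exists_orderOf_eq P.2 hfP
  rcases a with _ | a
  · exact absurd (orderOf_eq_one_iff.1 (by simpa using ha)) hf
  · exact (dvd_pow_self p a.succ_ne_zero).trans (ha ▸ orderOf_dvd_natCard f)

lemma XS_eq_of_mem {P S : Sylow p Q} {f : Q} (hf : f ≠ 1) (hfP : f ∈ (P : Subgroup Q))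
    (hfS : f ∈ (S : Subgroup Q)) :
    XS π k p ∩ (P : Subgroup Q) = XS π k p ∩ (S : Subgroup Q) := by
  obtain ⟨z, hz, hzP, hzc⟩ := h.exists_central_XS P (h.dvd_card_of_mem P hf hfP)
  obtain ⟨z', hz', hzS', hzc'⟩ := h.exists_central_XS S (h.dvd_card_of_mem S hf hfS)
  obtain ⟨R, hR⟩ := h.XS_mem_sylow (p := p) (h.centralizer_ne_top hf)
  rw [h.XS_eq hz hzP (hR ⟨hz, mem_centralizer_singleton_iff.2 (hzc f hfP).symm.eq⟩),
    h.XS_eq hz' hzS' (hR ⟨hz', mem_centralizer_singleton_iff.2 (hzc' f hfS).symm.eq⟩)]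

lemma normalizer_XS_ne_top (P : Sylow p Q) (hp' : p ∣ Nat.card Q) :
    normalizer ((closure (XS π k p ∩ (P : Subgroup Q)) : Subgroup Q) : Set Q) ≠ ⊤ := by
  obtain ⟨x, hx, hxP⟩ := h.exists_XS_mem P hp'
  refine h.normalizer_ne_top (fun e => hx.1 (mem_bot.1 ?_))
    (h.pgroup_ne_top (P.2.to_le (h.closure_XS_le P)))
  exact e ▸ Subgroup.subset_closure ⟨hx, hxP⟩

lemma nilpotent_quotient_fitting_of_ne_top {M : Subgroup Q} (hM : M ≠ ⊤) :
    Group.IsNilpotent (M ⧸ fittingSubgroup M) := by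
  have := h.solv M hM
  have hC : Cent (M.comap π) k := h.cent.of_injective (φ := (M.comap π).subtype) (subtype_injective _)
  have hnil := lcs_nilpotent hC
  set r := π.subgroupComap M
  have hr : Function.Surjective r := π.subgroupComap_surjective_of_surjective M h.surj
  have hmap : ((⊤ : Subgroup (M.comap π)).lowerCentralSeries k).map r =
      (⊤ : Subgroup M).lowerCentralSeries k := by
    rw [map_lowerCentralSeries, map_top_of_surjective r hr]
  have hnil' : Group.IsNilpotent ((⊤ : Subgroup M).lowerCentralSeries k) := by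
    rw [← hmap]
    exact Group.nilpotent_of_surjective (r.subgroupMap _) (r.subgroupMap_surjective _)
  refine Subgroup.nilpotent_iff_lowerCentralSeries.2 ⟨k, ?_⟩
  have := map_lowerCentralSeries (⊤ : Subgroup M) (QuotientGroup.mk' (fittingSubgroup M)) k
  rw [map_top_of_surjective _ (QuotientGroup.mk'_surjective _)] at this
  rw [← this, Subgroup.map_eq_bot_iff, QuotientGroup.ker_mk']
  exact Hall.le_fittingSubgroup hnil'

omit h in
lemma sylow_eq_bot_of_le_commutator {A : Type*} [Group A] [Finite A] [Group.IsNilpotent A]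
    (P : Sylow p A) (hP : (P : Subgroup A) ≤ _root_.commutator A) : (P : Subgroup A) = ⊥ := by
  obtain ⟨-, K, hK, -, hinf, hsup⟩ := GS.exists_direct_complement P fun y q b hq hne hy => by
    rw [mem_centralizer_iff]
    intro t ht
    obtain ⟨a, ha⟩ := exists_orderOf_eq P.2 ht
    exact GS.commute_of_nilpotent ‹_› hp.out hq hne.symm ha hy
  have : K = ⊤ := by
    by_contra hne
    have : Nontrivial (A ⧸ K) := QuotientGroup.nontrivial_iff.2 hne
    have hlt := Group.IsSolvable.commutator_lt_top_of_nontrivial (A ⧸ K)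
    refine hlt.ne (top_le_iff.1 ?_)
    have h1 : (⊤ : Subgroup (A ⧸ K)) ≤ (P : Subgroup A).map (QuotientGroup.mk' K) := by
      rintro x -
      obtain ⟨a, rfl⟩ := QuotientGroup.mk'_surjective K x
      obtain ⟨u, hu, v, hv, rfl⟩ := mem_sup_of_normal_right.1 (hsup.symm ▸ mem_top a :
        a ∈ (P : Subgroup A) ⊔ K)
      refine ⟨u, hu, ?_⟩
      rw [map_mul, show QuotientGroup.mk' K v = 1 from (QuotientGroup.eq_one_iff v).2 hv, mul_one]
    refine h1.trans ((map_mono hP).trans ?_)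
    rw [_root_.commutator_def, map_commutator]
    exact commutator_mono le_top le_top
  simpa [this] using hinf

lemma le_commutator_XS (P : Sylow p Q) :
    (P : Subgroup Q) ≤
      ⁅normalizer ((closure (XS π k p ∩ (P : Subgroup Q)) : Subgroup Q) : Set Q),
        normalizer ((closure (XS π k p ∩ (P : Subgroup Q)) : Subgroup Q) : Set Q)⁆ := by
  set M := normalizer ((closure (XS π k p ∩ (P : Subgroup Q)) : Subgroup Q) : Set Q) with hM
  have hperf : _root_.commutator Q = ⊤ := by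
    refine (h.simple.eq_bot_or_eq_top_of_normal _ inferInstance).resolve_left fun e => ?_
    refine h.ns (Group.isSolvable_of_comm fun a b => ?_)
    rw [← commutatorElement_eq_one_iff_mul_comm, ← mem_bot, ← e]
    exact commutator_mem_commutator (mem_top a) (mem_top b)
  have hfoc := (Transfer.focal_theorem (P : Subgroup Q) ?_).1
  · rw [hperf, top_inf_eq] at hfoc
    conv_lhs => rw [← hfoc, focalSubgroup_def]
    rw [closure_le]
    rintro g ⟨hg, x, hx, u, rfl⟩
    have hPM : (P : Subgroup Q) ≤ M := fun t ht => h.mem_normalizer_of_image fun s hs =>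
      Subgroup.subset_closure ⟨XS_conj h.surj hs.1 t, mul_mem (mul_mem ht hs.2) (inv_mem ht)⟩
    by_cases hx1 : x = 1
    · simp [hx1]
    refine commutator_mem_commutator (hPM hx) ?_
    have hu : u * x⁻¹ * u⁻¹ ∈ (P : Subgroup Q) := by
      have := mul_mem (inv_mem hx) hg
      simpa [commutatorElement_def, mul_assoc] using this
    refine h.mem_normalizer_of_image fun t ht => Subgroup.subset_closure ?_
    rw [h.XS_eq_of_mem (P := P) (S := u • P) (f := u * x⁻¹ * u⁻¹)
      (by simpa using hx1) hu (Transfer.mem_smul_sylow.2 (by simpa [mul_assoc] using inv_mem hx))]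
    exact ⟨XS_conj h.surj ht.1 u, Transfer.mem_smul_sylow.2
      (by rw [show u⁻¹ * (u * t * u⁻¹) * u = t by group]; exact ht.2)⟩
  · exact (P.card_coprime_index.symm).coprime_dvd_right (Transfer.relIndex_commutator_dvd_card _)

/-- `P` is normal in the normaliser of its values. -/
theorem normalizer_XS_eq (P : Sylow p Q) (hp' : p ∣ Nat.card Q) :
    normalizer ((closure (XS π k p ∩ (P : Subgroup Q)) : Subgroup Q) : Set Q) =
      normalizer ((P : Subgroup Q) : Set Q) := by
  set M := normalizer ((closure (XS π k p ∩ (P : Subgroup Q)) : Subgroup Q) : Set Q) with hM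
  have hNM : normalizer ((P : Subgroup Q) : Set Q) ≤ M := fun t ht =>
    h.mem_normalizer_of_image fun s hs =>
      Subgroup.subset_closure ⟨XS_conj h.surj hs.1 t, ((mem_normalizer_iff.1 ht) s).1 hs.2⟩
  refine le_antisymm ?_ hNM
  have hPM : (P : Subgroup Q) ≤ M := le_normalizer.trans hNM
  have := h.nilpotent_quotient_fitting_of_ne_top (h.normalizer_XS_ne_top P hp')
  set π' := QuotientGroup.mk' (fittingSubgroup M)
  have hcom : ((P.subtype hPM : Sylow p M) : Subgroup M) ≤ _root_.commutator M := by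
    intro x hx
    have hx' : (x : Q) ∈ ⁅M, M⁆ := h.le_commutator_XS P hx
    rw [← map_subtype_commutator] at hx'
    exact (mem_map_iff_mem (subtype_injective M)).1 hx'
  have hbot := sylow_eq_bot_of_le_commutator
    ((P.subtype hPM).mapSurjective (QuotientGroup.mk'_surjective (fittingSubgroup M))) (by
      rw [Sylow.coe_mapSurjective]
      refine (map_mono hcom).trans ?_
      rw [_root_.commutator_def, map_commutator]
      exact commutator_mono le_top le_top)
  rw [Sylow.coe_mapSurjective, Subgroup.map_eq_bot_iff, QuotientGroup.ker_mk'] at hbot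
  have hcore : ((P.subtype hPM : Sylow p M) : Subgroup M) ≤ pCore p M := fun x hx =>
    mem_pCore_of_nilpotent_normal inferInstance Hall.fittingSubgroup_isNilpotent (hbot hx)
      (exists_orderOf_eq (P.subtype hPM).2 hx)
  have heq := (P.subtype hPM).3 (Hall.isPGroup_pCore p) hcore
  intro m hm
  rw [mem_normalizer_iff]
  intro n
  have hn : ∀ a b : Q, a ∈ M → b ∈ (P : Subgroup Q) → a * b * a⁻¹ ∈ (P : Subgroup Q) := by
    intro a b ha hb
    have h1 : (⟨b, hPM hb⟩ : M) ∈ pCore p M := hcore hb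
    have h2 := (inferInstance : (pCore p M).Normal).conj_mem _ h1 ⟨a, ha⟩
    rw [heq] at h2
    exact h2
  exact ⟨hn m n hm, fun hc => by simpa [mul_assoc] using hn m⁻¹ _ (inv_mem hm) hc⟩

lemma le_normalizer_of_value {P : Sylow p Q} {x : Q} (hx : x ∈ XS π k p)
    (hxP : x ∈ (P : Subgroup Q)) {L : Subgroup Q} (hL : L ≠ ⊤) (hxL : x ∈ L) :
    L ≤ normalizer ((P : Subgroup Q) : Set Q) :=
  (h.le_normalizer_XS hx hxP hL hxL).trans
    (h.normalizer_XS_eq P (h.dvd_card_of_mem P hx.1 hxP)).le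

lemma centralizer_le {P : Sylow p Q} {f : Q} (hf : f ≠ 1) (hfP : f ∈ (P : Subgroup Q)) :
    centralizer ({f} : Set Q) ≤ normalizer ((P : Subgroup Q) : Set Q) :=
  (h.centralizer_le_normalizer_XS hf hfP).trans
    (h.normalizer_XS_eq P (h.dvd_card_of_mem P hf hfP)).le

omit [Finite G] h in
lemma mem_sylow_of_mem_normalizer {P : Sylow p Q} {f : Q}
    (hf : f ∈ normalizer ((P : Subgroup Q) : Set Q)) (hfp : ∃ a, orderOf f = p ^ a) :
    f ∈ (P : Subgroup Q) := by
  obtain ⟨a, ha⟩ := hfp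
  have hz : IsPGroup p (zpowers f) := IsPGroup.of_card (by rw [Nat.card_zpowers, ha])
  have := P.3 (P.2.to_sup_of_normal_left' hz (zpowers_le.2 hf)) le_sup_left
  exact this ▸ (le_sup_right : zpowers f ≤ _) (mem_zpowers f)

/-- The Sylow subgroups are TI sets. -/
theorem sylow_eq {P S : Sylow p Q} {f : Q} (hf : f ≠ 1) (hfP : f ∈ (P : Subgroup Q))
    (hfS : f ∈ (S : Subgroup Q)) : P = S := by
  have e : normalizer ((P : Subgroup Q) : Set Q) = normalizer ((S : Subgroup Q) : Set Q) := by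
    rw [← h.normalizer_XS_eq P (h.dvd_card_of_mem P hf hfP),
      ← h.normalizer_XS_eq S (h.dvd_card_of_mem S hf hfS), h.XS_eq_of_mem hf hfP hfS]
  refine Sylow.ext (le_antisymm ?_ ?_)
  · exact fun x hx => mem_sylow_of_mem_normalizer (e.le (le_normalizer hx)) (exists_orderOf_eq P.2 hx)
  · exact fun x hx => mem_sylow_of_mem_normalizer (e.ge (le_normalizer hx)) (exists_orderOf_eq S.2 hx)

end Ctx

end Cfsg.Agent.Lib.IterComm
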